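import Mathlib

/-!
# Groups in which the normalizers of the nontrivial subgroups of order `p ^ a * q ^ b` are maximal

General lemmas: `nor_sup`, `nor_comm`, `fix_all`, `eq_of_inv`, `exists_core`, `nor_nor`.
-/

set_option autoImplicit false

namespace Cfsg.Agent.H546.MaxNor

open Subgroup
open scoped Pointwise

variable {X : Type*} [Group X]

/-- the order has at most two prime divisors -/
def TwoP (H : Subgroup X) : Prop :=
  ∃ p q : ℕ, p.Prime ∧ q.Prime ∧ ∀ r : ℕ, r.Prime → r ∣ Nat.card H → r = p ∨ r = q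

/-- the nontrivial subgroups whose order has at most two prime divisors have maximal normalizers -/
def PM (X : Type*) [Group X] : Prop :=
  ∀ H : Subgroup X, H ≠ ⊥ → TwoP H → IsCoatom (normalizer (H : Set X))

theorem mem_nor [Finite X] {H : Subgroup X} {g : X} (h : ∀ x ∈ H, g * x * g⁻¹ ∈ H) :
    g ∈ normalizer (H : Set X) := by
  rw [mem_normalizer_iff_map_conj_eq]
  apply Subgroup.eq_of_le_of_card_ge
  · rintro _ ⟨x, hx, rfl⟩
    exact h x hx
  · rw [Subgroup.card_map_of_injective (MulAut.conj g).injective]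

theorem conj_mem {H : Subgroup X} {g x : X} (hg : g ∈ normalizer (H : Set X)) (hx : x ∈ H) : g * x * g⁻¹ ∈ H :=
  (mem_normalizer_iff.1 hg x).1 hx

theorem conj_mem' {H : Subgroup X} {g x : X} (hg : g ∈ normalizer (H : Set X)) (hx : x ∈ H) : g⁻¹ * x * g ∈ H := by
  have := conj_mem (inv_mem hg) hx
  rwa [inv_inv] at this

theorem eq_one_of_pow {p r k l : ℕ} (hp : p.Prime) (hr : r.Prime) (hpr : p ≠ r) {x : X}
    (h1 : x ^ p ^ k = 1) (h2 : x ^ r ^ l = 1) : x = 1 := by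
  have h3 := orderOf_dvd_of_pow_eq_one h1
  have h4 := orderOf_dvd_of_pow_eq_one h2
  have h5 : Nat.Coprime (p ^ k) (r ^ l) := Nat.Coprime.pow _ _ ((Nat.coprime_primes hp hr).2 hpr)
  have h6 := Nat.dvd_gcd h3 h4
  rw [h5.gcd_eq_one] at h6
  exact orderOf_eq_one_iff.1 (Nat.dvd_one.1 h6)

theorem inf_eq_bot {p r : ℕ} (hp : p.Prime) (hr : r.Prime) (hpr : p ≠ r) {A B : Subgroup X}
    (hA : IsPGroup p A) (hB : IsPGroup r B) {x : X} (h1 : x ∈ A) (h2 : x ∈ B) : x = 1 := by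
  obtain ⟨k, hk⟩ := hA ⟨x, h1⟩
  obtain ⟨l, hl⟩ := hB ⟨x, h2⟩
  exact eq_one_of_pow hp hr hpr (congrArg Subtype.val hk) (congrArg Subtype.val hl)

theorem mem_sup_nor {A B : Subgroup X} (hBA : B ≤ normalizer (A : Set X)) {x : X} :
    x ∈ A ⊔ B ↔ ∃ a ∈ A, ∃ b ∈ B, a * b = x := by
  have h := Subgroup.coe_mul_of_right_le_normalizer_left A B hBA
  constructor
  · intro hx
    have hx' : x ∈ ((A ⊔ B : Subgroup X) : Set X) := hx
    rw [h] at hx'
    exact Set.mem_mul.1 hx'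
  · rintro ⟨a, ha, b, hb, rfl⟩
    exact mul_mem (le_sup_left (a := A) ha) (le_sup_right (b := B) hb)

theorem pow_mul_mem {A B : Subgroup X} (hBA : B ≤ normalizer (A : Set X)) {a b : X} (ha : a ∈ A) (hb : b ∈ B)
    (n : ℕ) : ∃ a' ∈ A, (a * b) ^ n = a' * b ^ n := by
  induction n with
  | zero => exact ⟨1, one_mem _, by simp⟩
  | succ n ih =>
    obtain ⟨a', ha', h⟩ := ih
    refine ⟨a' * (b ^ n * a * (b ^ n)⁻¹), mul_mem ha' (conj_mem (hBA (pow_mem hb n)) ha), ?_⟩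
    rw [pow_succ, h, pow_succ]
    group

theorem twoP_of_isPGroup [Finite X] {p : ℕ} (hp : p.Prime) {H : Subgroup X} (hH : IsPGroup p H) : TwoP H := by
  refine ⟨p, p, hp, hp, fun r hr hdvd => ?_⟩
  have : Fact p.Prime := ⟨hp⟩
  obtain ⟨k, hk⟩ := IsPGroup.iff_card.1 hH
  rw [hk] at hdvd
  exact Or.inl ((Nat.prime_dvd_prime_iff_eq hr hp).1 (hr.dvd_of_dvd_pow hdvd))

theorem dvd_of_isPGroup [Finite X] {p s : ℕ} (hp : p.Prime) (hs : s.Prime) {H : Subgroup X} (hH : IsPGroup p H)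
    (h : s ∣ Nat.card H) : s = p := by
  have : Fact p.Prime := ⟨hp⟩
  obtain ⟨k, hk⟩ := IsPGroup.iff_card.1 hH
  rw [hk] at h
  exact (Nat.prime_dvd_prime_iff_eq hs hp).1 (hs.dvd_of_dvd_pow h)

theorem twoP_sup [Finite X] {p r : ℕ} (hp : p.Prime) (hr : r.Prime) {A B : Subgroup X}
    (hA : IsPGroup p A) (hB : IsPGroup r B) (hBA : B ≤ normalizer (A : Set X)) : TwoP (A ⊔ B) := by
  refine ⟨p, r, hp, hr, fun s hs hdvd => ?_⟩
  have : Fact s.Prime := ⟨hs⟩
  obtain ⟨x, hx⟩ := exists_prime_orderOf_dvd_card' s hdvd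
  obtain ⟨a, ha, b, hb, hab⟩ := (mem_sup_nor hBA).1 x.2
  obtain ⟨a', ha', h⟩ := pow_mul_mem hBA ha hb (Nat.card B)
  have hb1 : b ^ Nat.card B = 1 := by
    have := pow_card_eq_one' (x := (⟨b, hb⟩ : B))
    exact congrArg Subtype.val this
  have ha1 : a' ^ Nat.card A = 1 := by
    have := pow_card_eq_one' (x := (⟨a', ha'⟩ : A))
    exact congrArg Subtype.val this
  rw [hb1, mul_one, hab] at h
  have h2 : (x : X) ^ (Nat.card B * Nat.card A) = 1 := by rw [pow_mul, h, ha1]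
  have h3 : x ^ (Nat.card B * Nat.card A) = 1 := Subtype.ext h2
  have h4 := orderOf_dvd_of_pow_eq_one h3
  rw [hx] at h4
  rcases (Nat.Prime.dvd_mul hs).1 h4 with h5 | h5
  · exact Or.inr (dvd_of_isPGroup hr hs hB h5)
  · exact Or.inl (dvd_of_isPGroup hp hs hA h5)

theorem mem_of_pow [Finite X] {p r : ℕ} (hp : p.Prime) (hr : r.Prime) (hpr : p ≠ r) {A B : Subgroup X}
    (hA : IsPGroup p A) (hB : IsPGroup r B) (hBA : B ≤ normalizer (A : Set X)) {x : X} (hx : x ∈ A ⊔ B)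
    {k : ℕ} (hk : x ^ p ^ k = 1) : x ∈ A := by
  obtain ⟨a, ha, b, hb, rfl⟩ := (mem_sup_nor hBA).1 hx
  obtain ⟨a', ha', h⟩ := pow_mul_mem hBA ha hb (p ^ k)
  rw [hk] at h
  have h1 : b ^ p ^ k ∈ A := by
    have : b ^ p ^ k = a'⁻¹ := (inv_eq_of_mul_eq_one_right h.symm).symm
    rw [this]; exact inv_mem ha'
  have h2 : b ^ p ^ k = 1 := inf_eq_bot hp hr hpr hA hB h1 (pow_mem hb _)
  obtain ⟨l, hl⟩ := hB ⟨b, hb⟩
  have h3 : b = 1 := eq_one_of_pow hp hr hpr h2 (congrArg Subtype.val hl)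
  rw [h3, mul_one]; exact ha

theorem nor_sup_le [Finite X] {p r : ℕ} (hp : p.Prime) (hr : r.Prime) (hpr : p ≠ r) {A B : Subgroup X}
    (hA : IsPGroup p A) (hB : IsPGroup r B) (hBA : B ≤ normalizer (A : Set X)) :
    normalizer ((A ⊔ B : Subgroup X) : Set X) ≤ normalizer (A : Set X) := by
  intro g hg
  apply mem_nor
  intro x hx
  obtain ⟨k, hk⟩ := hA ⟨x, hx⟩
  apply mem_of_pow hp hr hpr hA hB hBA (conj_mem hg (le_sup_left (a := A) hx)) (k := k)
  rw [conj_pow, show x ^ p ^ k = 1 from congrArg Subtype.val hk, mul_one, mul_inv_cancel]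

theorem nor_eq (hX : PM X) {H K : Subgroup X} (hH : H ≠ ⊥) (hH2 : TwoP H) (hK : K ≠ ⊥) (hK2 : TwoP K)
    (h : normalizer (H : Set X) ≤ normalizer (K : Set X)) :
    normalizer (H : Set X) = normalizer (K : Set X) := by
  rcases (hX H hH hH2).le_iff.1 h with h1 | h1
  · exact absurd h1 (hX K hK hK2).1
  · exact h1.symm

theorem nor_sup [Finite X] (hX : PM X) {p r : ℕ} (hp : p.Prime) (hr : r.Prime) (hpr : p ≠ r) {A B : Subgroup X}
    (hA : IsPGroup p A) (hB : IsPGroup r B) (hA1 : A ≠ ⊥) (hBA : B ≤ normalizer (A : Set X)) :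
    normalizer ((A ⊔ B : Subgroup X) : Set X) = normalizer (A : Set X) := by
  refine nor_eq hX ?_ (twoP_sup hp hr hA hB hBA) hA1 (twoP_of_isPGroup hp hA)
    (nor_sup_le hp hr hpr hA hB hBA)
  intro h
  exact hA1 (le_bot_iff.1 (h ▸ le_sup_left))

theorem le_nor_of_comm {A B : Subgroup X} (h : ∀ a ∈ A, ∀ b ∈ B, a * b = b * a) :
    B ≤ normalizer (A : Set X) := by
  intro b hb
  rw [mem_normalizer_iff]
  intro a
  constructor
  · intro ha
    rw [← h a ha b hb, mul_inv_cancel_right]; exact ha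
  · intro ha
    have h1 := h _ ha b hb
    have h2 : b * a * b⁻¹ * b = b * a := by group
    rw [h2] at h1
    have h3 : a = b * a * b⁻¹ := by
      have := mul_left_cancel h1
      exact this
    rw [h3]; exact ha

theorem nor_comm [Finite X] (hX : PM X) {p r : ℕ} (hp : p.Prime) (hr : r.Prime) (hpr : p ≠ r) {A B : Subgroup X}
    (hA : IsPGroup p A) (hB : IsPGroup r B) (hA1 : A ≠ ⊥) (hB1 : B ≠ ⊥)
    (h : ∀ a ∈ A, ∀ b ∈ B, a * b = b * a) :
    normalizer (A : Set X) = normalizer (B : Set X) := by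
  rw [← nor_sup hX hp hr hpr hA hB hA1 (le_nor_of_comm h), sup_comm,
    nor_sup hX hr hp hpr.symm hB hA hB1 (le_nor_of_comm fun b hb a ha => (h a ha b hb).symm)]

/-- a commutator of elements of mutually normalizing subgroups of coprime orders is trivial -/
theorem comm_of_nor {p r : ℕ} (hp : p.Prime) (hr : r.Prime) (hpr : p ≠ r) {U R : Subgroup X}
    (hU : IsPGroup p U) (hR : IsPGroup r R) (hRU : R ≤ normalizer (U : Set X)) {u : X} (hu : u ∈ U)
    (hur : u ∈ normalizer (R : Set X)) {ρ : X} (hρ : ρ ∈ R) : u * ρ = ρ * u := by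
  have h1 : u * ρ * u⁻¹ * ρ⁻¹ ∈ R := mul_mem (conj_mem hur hρ) (inv_mem hρ)
  have h2 : u * ρ * u⁻¹ * ρ⁻¹ ∈ U := by
    have : u * ρ * u⁻¹ * ρ⁻¹ = u * (ρ * u⁻¹ * ρ⁻¹) := by group
    rw [this]
    exact mul_mem hu (conj_mem (hRU hρ) (inv_mem hu))
  have h3 := inf_eq_bot hp hr hpr hU hR h2 h1
  have h4 : u * ρ * u⁻¹ = ρ := mul_inv_eq_one.1 h3
  exact mul_inv_eq_iff_eq_mul.1 h4

/-- **(A1)** If the `r`-group `R` normalizes the `p`-group `U` and centralizes a nontrivial element of `U`, then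
`R` centralizes `U`. -/
theorem fix_all [Finite X] (hX : PM X) {p r : ℕ} (hp : p.Prime) (hr : r.Prime) (hpr : p ≠ r) {U R : Subgroup X}
    (hU : IsPGroup p U) (hR : IsPGroup r R) (hRU : R ≤ normalizer (U : Set X)) {u : X} (hu : u ∈ U) (hu1 : u ≠ 1)
    (h : ∀ ρ ∈ R, u * ρ = ρ * u) : ∀ v ∈ U, ∀ ρ ∈ R, v * ρ = ρ * v := by
  have : Fact p.Prime := ⟨hp⟩
  rcases eq_or_ne R ⊥ with rfl | hR1
  · intro v _ ρ hρ
    rw [Subgroup.mem_bot.1 hρ, mul_one, one_mul]
  set A : Subgroup X := U ⊓ centralizer (R : Set X) with hA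
  have hAU : A ≤ U := inf_le_left
  have hAp : IsPGroup p A := hU.to_le hAU
  have hmemA : ∀ v, v ∈ A ↔ v ∈ U ∧ ∀ ρ ∈ R, v * ρ = ρ * v := by
    intro v
    rw [hA, Subgroup.mem_inf, Subgroup.mem_centralizer_iff]
    constructor
    · rintro ⟨h1, h2⟩
      exact ⟨h1, fun ρ hρ => (h2 ρ hρ).symm⟩
    · rintro ⟨h1, h2⟩
      exact ⟨h1, fun ρ hρ => (h2 ρ hρ).symm⟩
  have hA1 : A ≠ ⊥ := by
    intro hbot
    have : u ∈ A := (hmemA u).2 ⟨hu, h⟩
    rw [hbot, Subgroup.mem_bot] at this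
    exact hu1 this
  have hnor := nor_comm hX hp hr hpr hAp hR hA1 hR1 (fun a ha b hb => ((hmemA a).1 ha).2 b hb)
  -- the normalizer of `A` in `U` is `A`
  have hself : ∀ v ∈ U, v ∈ normalizer (A : Set X) → v ∈ A := by
    intro v hv hvA
    rw [hnor] at hvA
    exact (hmemA v).2 ⟨hv, fun ρ hρ => comm_of_nor hp hr hpr hU hR hRU hv hvA hρ⟩
  have hAU' : A = U := by
    by_contra hne
    have hlt : A < U := lt_of_le_of_ne hAU hne
    have hnil : Group.IsNilpotent U := IsPGroup.isNilpotent hU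
    have hnc : NormalizerCondition U := Group.normalizerCondition_of_isNilpotent
    have hlt' : A.subgroupOf U < ⊤ := by
      rw [lt_top_iff_ne_top]
      intro htop
      rw [Subgroup.subgroupOf_eq_top] at htop
      exact hne (le_antisymm hAU htop)
    have h1 := hnc _ hlt'
    obtain ⟨w, hw, hwn⟩ := SetLike.exists_of_lt h1
    apply hwn
    rw [Subgroup.mem_subgroupOf]
    apply hself w w.2
    apply mem_nor
    intro x hx
    have := conj_mem hw (show (⟨x, hAU hx⟩ : U) ∈ A.subgroupOf U from hx)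
    exact this
  intro v hv
  rw [← hAU'] at hv
  exact ((hmemA v).1 hv).2

/-- two `r`-subgroups of `V ⊔ R` of the same order are conjugate under `V` -/
theorem conj_of_sup [Finite X] {p r : ℕ} (hp : p.Prime) (hr : r.Prime) (hpr : p ≠ r) {V R R' : Subgroup X}
    (hV : IsPGroup p V) (hR : IsPGroup r R) (hR' : IsPGroup r R') (hRV : R ≤ normalizer (V : Set X))
    (hle : R' ≤ V ⊔ R) (hcard : Nat.card R' = Nat.card R) :
    ∃ v ∈ V, R' = R.map (MulAut.conj v).toMonoidHom := by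
  have : Fact r.Prime := ⟨hr⟩
  have : Fact p.Prime := ⟨hp⟩
  set W : Subgroup X := V ⊔ R with hW
  have hVW : V ≤ W := le_sup_left
  have hRW : R ≤ W := le_sup_right
  have hcompl : Nat.card W = Nat.card V * Nat.card R := by
    have h1 : V ⊓ R = ⊥ := by
      rw [eq_bot_iff]
      intro x hx
      exact Subgroup.mem_bot.2 (inf_eq_bot hp hr hpr hV hR hx.1 hx.2)
    have e : V × R ≃ W := by
      refine Equiv.ofBijective (fun x => ⟨x.1 * x.2, mul_mem (hVW x.1.2) (hRW x.2.2)⟩) ⟨?_, ?_⟩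
      · rintro ⟨a, b⟩ ⟨c, d⟩ h
        have h2 : (a : X) * b = c * d := congrArg Subtype.val h
        have h3 : (c : X)⁻¹ * a = d * (b : X)⁻¹ := by
          rw [inv_mul_eq_iff_eq_mul, ← mul_assoc, ← h2, mul_inv_cancel_right]
        have h4 : (c : X)⁻¹ * a ∈ V ⊓ R :=
          ⟨V.mul_mem (V.inv_mem c.2) a.2, h3 ▸ R.mul_mem d.2 (R.inv_mem b.2)⟩
        rw [h1, Subgroup.mem_bot] at h4
        have h5 : a = c := Subtype.ext (inv_mul_eq_one.1 h4).symm
        subst h5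
        have h6 : b = d := Subtype.ext (mul_left_cancel h2)
        rw [h6]
      · rintro ⟨w, hw⟩
        obtain ⟨a, ha, b, hb, hab⟩ := (mem_sup_nor hRV).1 hw
        exact ⟨(⟨a, ha⟩, ⟨b, hb⟩), Subtype.ext hab⟩
    rw [← Nat.card_congr e, Nat.card_prod]
  have hnd : ¬ r ∣ Nat.card V := fun h => hpr (dvd_of_isPGroup hp hr hV h).symm
  obtain ⟨k, hk⟩ := IsPGroup.iff_card.1 hR
  have hfac : (Nat.card W).factorization r = k := by
    rw [hcompl, hk, Nat.factorization_mul Nat.card_pos.ne' (pow_pos hr.pos k).ne', hr.factorization_pow]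
    simp [Nat.factorization_eq_zero_of_not_dvd hnd]
  have hc1 : Nat.card (R.subgroupOf W) = r ^ (Nat.card W).factorization r := by
    rw [hfac, ← hk]
    exact Nat.card_congr (Subgroup.subgroupOfEquivOfLe hRW).toEquiv
  have hc2 : Nat.card (R'.subgroupOf W) = r ^ (Nat.card W).factorization r := by
    rw [hfac, ← hk, ← hcard]
    exact Nat.card_congr (Subgroup.subgroupOfEquivOfLe hle).toEquiv
  obtain ⟨w, hw⟩ := MulAction.exists_smul_eq W (Sylow.ofCard _ hc1) (Sylow.ofCard _ hc2)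
  obtain ⟨v, hv, ρ, hρ, hvρ⟩ := (mem_sup_nor hRV).1 w.2
  refine ⟨v, hv, ?_⟩
  have h1 : (MulAut.conj w) • (R.subgroupOf W) = R'.subgroupOf W := by
    have := congrArg (fun P : Sylow r W => (P : Subgroup W)) hw
    exact this
  have hR'eq : R' = R.map (MulAut.conj (w : X)).toMonoidHom := by
    have h2 : (MulAut.conj w • R.subgroupOf W).map W.subtype = (R'.subgroupOf W).map W.subtype :=
      congrArg (fun K : Subgroup W => K.map W.subtype) h1
    rw [Subgroup.subgroupOf_map_subtype, inf_eq_left.2 hle] at h2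
    rw [← h2]
    ext x
    constructor
    · rintro ⟨y, hy, rfl⟩
      obtain ⟨z, hz, hzy⟩ := hy
      refine ⟨z, hz, ?_⟩
      have := congrArg Subtype.val hzy
      exact this
    · rintro ⟨y, hy, rfl⟩
      refine ⟨w * ⟨y, hRW hy⟩ * w⁻¹, ⟨⟨y, hRW hy⟩, hy, rfl⟩, rfl⟩
  rw [hR'eq, ← hvρ]
  ext x
  constructor
  · rintro ⟨y, hy, rfl⟩
    refine ⟨ρ * y * ρ⁻¹, mul_mem (mul_mem hρ hy) (inv_mem hρ), ?_⟩
    simp [MulAut.conj_apply, mul_assoc]
  · rintro ⟨y, hy, rfl⟩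
    refine ⟨ρ⁻¹ * y * ρ, mul_mem (mul_mem (inv_mem hρ) hy) hρ, ?_⟩
    simp [MulAut.conj_apply, mul_assoc]

/-- **(A2)** If the `r`-group `R` normalizes the `p`-group `U` and centralizes no nontrivial element of `U`, then
`U` has no nontrivial proper `R`-invariant subgroup. -/
theorem eq_of_inv [Finite X] (hX : PM X) {p r : ℕ} (hp : p.Prime) (hr : r.Prime) (hpr : p ≠ r)
    {U R V : Subgroup X} (hU : IsPGroup p U) (hR : IsPGroup r R) (hRU : R ≤ normalizer (U : Set X))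
    (hfree : ∀ u ∈ U, (∀ ρ ∈ R, u * ρ = ρ * u) → u = 1) (hVU : V ≤ U) (hV1 : V ≠ ⊥)
    (hRV : R ≤ normalizer (V : Set X)) : V = U := by
  have : Fact p.Prime := ⟨hp⟩
  have hVp : IsPGroup p V := hU.to_le hVU
  have hnor := nor_sup hX hp hr hpr hVp hR hV1 hRV
  have hself : ∀ u ∈ U, u ∈ normalizer (V : Set X) → u ∈ V := by
    intro u hu huV
    rw [← hnor] at huV
    have hle : R.map (MulAut.conj u).toMonoidHom ≤ V ⊔ R := by
      rintro _ ⟨ρ, hρ, rfl⟩
      exact conj_mem huV (le_sup_right (b := R) hρ)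
    obtain ⟨v, hv, hRv⟩ := conj_of_sup hp hr hpr hVp hR (hR.map _) hRV hle
      (Subgroup.card_map_of_injective (MulAut.conj u).injective)
    have hnR : v⁻¹ * u ∈ normalizer (R : Set X) := by
      apply mem_nor
      intro ρ hρ
      have h1 : u * ρ * u⁻¹ ∈ R.map (MulAut.conj u).toMonoidHom := ⟨ρ, hρ, rfl⟩
      rw [hRv] at h1
      obtain ⟨ρ', hρ', h2⟩ := h1
      have h3 : v * ρ' * v⁻¹ = u * ρ * u⁻¹ := h2
      have h4 : v⁻¹ * u * ρ * (v⁻¹ * u)⁻¹ = ρ' := by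
        rw [show v⁻¹ * u * ρ * (v⁻¹ * u)⁻¹ = v⁻¹ * (u * ρ * u⁻¹) * v by group, ← h3]
        group
      rw [h4]; exact hρ'
    have hin : v⁻¹ * u ∈ U := mul_mem (inv_mem (hVU hv)) hu
    have h5 : v⁻¹ * u = 1 := hfree _ hin fun ρ hρ => comm_of_nor hp hr hpr hU hR hRU hin hnR hρ
    rw [inv_mul_eq_one.1 h5] at hv
    exact hv
  by_contra hne
  have hlt : V < U := lt_of_le_of_ne hVU hne
  have hnil : Group.IsNilpotent U := IsPGroup.isNilpotent hU
  have hnc : NormalizerCondition U := Group.normalizerCondition_of_isNilpotent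
  have hlt' : V.subgroupOf U < ⊤ := by
    rw [lt_top_iff_ne_top]
    intro htop
    rw [Subgroup.subgroupOf_eq_top] at htop
    exact hne (le_antisymm hVU htop)
  have h1 := hnc _ hlt'
  obtain ⟨w, hw, hwn⟩ := SetLike.exists_of_lt h1
  apply hwn
  rw [Subgroup.mem_subgroupOf]
  apply hself w w.2
  apply mem_nor
  intro x hx
  have := conj_mem hw (show (⟨x, hVU hx⟩ : U) ∈ V.subgroupOf U from hx)
  exact this

theorem isPGroup_sup {p : ℕ} {A B : Subgroup X} (hA : IsPGroup p A) (hB : IsPGroup p B)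
    (hBA : B ≤ normalizer (A : Set X)) : IsPGroup p (A ⊔ B : Subgroup X) :=
  hA.to_sup_of_normal_left' hB hBA

/-- The `p`-core of the normalizer of a nontrivial `p`-subgroup. -/
theorem exists_core [Finite X] (hX : PM X) {p : ℕ} (hp : p.Prime) {H : Subgroup X} (hH : IsPGroup p H)
    (hH1 : H ≠ ⊥) : ∃ W : Subgroup X, IsPGroup p W ∧ H ≤ W ∧
      normalizer (W : Set X) = normalizer (H : Set X) ∧
      ∀ W' : Subgroup X, IsPGroup p W' → normalizer (H : Set X) ≤ normalizer (W' : Set X) → W' ≤ W := by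
  obtain ⟨W, ⟨hWp, hHW, hnW⟩, hmax⟩ := Set.Finite.exists_maximalFor
    (fun W : Subgroup X => Nat.card W)
    {W : Subgroup X | IsPGroup p W ∧ H ≤ W ∧ normalizer (H : Set X) ≤ normalizer (W : Set X)}
    (Set.toFinite _) ⟨H, hH, le_rfl, le_rfl⟩
  have hW1 : W ≠ ⊥ := fun h => hH1 (le_bot_iff.1 (h ▸ hHW))
  have heq := nor_eq hX hH1 (twoP_of_isPGroup hp hH) hW1 (twoP_of_isPGroup hp hWp) hnW
  refine ⟨W, hWp, hHW, heq.symm, fun W' hW' hn => ?_⟩
  rcases eq_or_ne W' ⊥ with rfl | hW'1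
  · exact bot_le
  have heq' := nor_eq hX hH1 (twoP_of_isPGroup hp hH) hW'1 (twoP_of_isPGroup hp hW') hn
  have hle : W' ≤ normalizer (W : Set X) := by
    rw [← heq, heq']; exact le_normalizer
  have hsup : IsPGroup p (W ⊔ W' : Subgroup X) := isPGroup_sup hWp hW' hle
  have hmem : (W ⊔ W' : Subgroup X) ∈
      {W : Subgroup X | IsPGroup p W ∧ H ≤ W ∧ normalizer (H : Set X) ≤ normalizer (W : Set X)} := by
    refine ⟨hsup, hHW.trans le_sup_left, ?_⟩
    intro g hg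
    apply mem_nor
    intro x hx
    obtain ⟨a, ha, b, hb, rfl⟩ := (mem_sup_nor hle).1 hx
    rw [show g * (a * b) * g⁻¹ = (g * a * g⁻¹) * (g * b * g⁻¹) by group]
    exact mul_mem (le_sup_left (a := W) (conj_mem (hnW hg) ha)) (le_sup_right (b := W') (conj_mem (hn hg) hb))
  have h1 := hmax hmem (Nat.card_le_card_of_injective (Subgroup.inclusion (le_sup_left (a := W) (b := W')))
    (Subgroup.inclusion_injective _))
  have h2 : W = W ⊔ W' := Subgroup.eq_of_le_of_card_ge le_sup_left h1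
  rw [h2]; exact le_sup_right

/-- the normalizer of a nontrivial `p`-subgroup is its own normalizer -/
theorem nor_nor [Finite X] (hX : PM X) {p : ℕ} (hp : p.Prime) {H : Subgroup X} (hH : IsPGroup p H)
    (hH1 : H ≠ ⊥) : normalizer ((normalizer (H : Set X) : Subgroup X) : Set X) = normalizer (H : Set X) := by
  obtain ⟨W, hWp, hHW, hWn, hmax⟩ := exists_core hX hp hH hH1
  apply le_antisymm _ le_normalizer
  intro g hg
  rw [← hWn]
  apply mem_nor
  have h1 : W.map (MulAut.conj g).toMonoidHom ≤ W := by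
    apply hmax _ (hWp.map _)
    intro m hm
    apply mem_nor
    rintro _ ⟨x, hx, rfl⟩
    have h2 : g⁻¹ * m * g ∈ normalizer (H : Set X) := conj_mem' hg hm
    rw [← hWn] at h2
    refine ⟨g⁻¹ * m * g * x * (g⁻¹ * m * g)⁻¹, conj_mem h2 hx, ?_⟩
    simp [MulAut.conj_apply, mul_assoc]
  intro x hx
  exact h1 ⟨x, hx, rfl⟩

end Cfsg.Agent.H546.MaxNor
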