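import Cfsg.Agent.H546.MaxNorSimple

/-!
# A finite group of odd order whose cyclic subgroups of prime power order are normal is abelian
-/

set_option autoImplicit false
set_option linter.unusedSectionVars false

namespace Cfsg.Agent.H546.MaxNor

open Subgroup
open scoped Pointwise

variable {S : Type*} [Group S]

theorem mul_pow_class {x y e : S} (h : y * x = x * y * e) (hxe : x * e = e * x) (hye : y * e = e * y) (n : ℕ) :
    (x * y) ^ n = x ^ n * y ^ n * e ^ (n.choose 2) := by
  have hxe' : Commute x e := hxe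
  have hye' : Commute y e := hye
  have h1 : ∀ n : ℕ, y ^ n * x = x * y ^ n * e ^ n := by
    intro n
    induction n with
    | zero => simp
    | succ n ih =>
      calc y ^ (n + 1) * x = y * (y ^ n * x) := by rw [pow_succ']; group
        _ = y * x * (y ^ n * e ^ n) := by rw [ih]; group
        _ = x * y * (e * y ^ n) * e ^ n := by rw [h]; group
        _ = x * y * (y ^ n * e) * e ^ n := by rw [(hye'.pow_left n).eq]
        _ = x * y ^ (n + 1) * e ^ (n + 1) := by rw [pow_succ' y, pow_succ' e]; group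
  induction n with
  | zero => simp
  | succ n ih =>
    have h2 : (n + 1).choose 2 = n + n.choose 2 := by
      rw [Nat.choose_succ_succ' n 1, Nat.choose_one_right]
    rw [pow_succ, ih, h2]
    calc x ^ n * y ^ n * e ^ n.choose 2 * (x * y)
        = x ^ n * y ^ n * (e ^ n.choose 2 * (x * y)) := by group
      _ = x ^ n * y ^ n * (x * y * e ^ n.choose 2) := by
          rw [((hxe'.mul_left hye').pow_right (n.choose 2)).eq]
      _ = x ^ n * (y ^ n * x) * y * e ^ n.choose 2 := by group
      _ = x ^ n * (x * y ^ n * e ^ n) * y * e ^ n.choose 2 := by rw [h1]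
      _ = x ^ n * x * y ^ n * (e ^ n * y) * e ^ n.choose 2 := by group
      _ = x ^ n * x * y ^ n * (y * e ^ n) * e ^ n.choose 2 := by rw [(hye'.pow_right n).eq]
      _ = x ^ (n + 1) * y ^ (n + 1) * e ^ (n + n.choose 2) := by
          rw [pow_succ x, pow_succ y, pow_add]; group

theorem mem_bottom {p k : ℕ} (hp : p.Prime) {a c : S} (h : orderOf a = p ^ (k + 1)) (hc : c ∈ zpowers a)
    (hcp : c ^ p = 1) : c ∈ zpowers (a ^ p ^ k) := by
  obtain ⟨i, rfl⟩ := mem_zpowers_iff.1 hc
  rw [← zpow_natCast, ← zpow_mul] at hcp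
  have h1 : ((orderOf a : ℕ) : ℤ) ∣ i * p := orderOf_dvd_iff_zpow_eq_one.2 hcp
  rw [h, pow_succ] at h1
  push_cast at h1
  have h2 : (p : ℤ) ^ k ∣ i := Int.dvd_of_mul_dvd_mul_right (by exact_mod_cast hp.ne_zero) h1
  obtain ⟨j, rfl⟩ := h2
  rw [zpow_mul]
  have h3 : a ^ ((p : ℤ) ^ k) = a ^ p ^ k := by
    rw [← zpow_natCast a (p ^ k)]; push_cast; rfl
  rw [h3]
  exact zpow_mem (mem_zpowers _) j

theorem zpowers_bottom [Finite S] {p k : ℕ} (hp : p.Prime) {a c : S} (h : orderOf a = p ^ (k + 1))
    (hc : c ∈ zpowers a) (hcp : c ^ p = 1) (hc1 : c ≠ 1) : zpowers c = zpowers (a ^ p ^ k) := by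
  have hf : Fact p.Prime := ⟨hp⟩
  have h1 : orderOf c = p := orderOf_eq_prime hcp hc1
  apply Subgroup.eq_of_le_of_card_ge
  · rw [zpowers_le]; exact mem_bottom hp h hc hcp
  · rw [Nat.card_zpowers, Nat.card_zpowers, h1, orderOf_pow, h, pow_succ,
      Nat.gcd_eq_right (Dvd.intro p rfl), Nat.mul_div_cancel_left _ (pow_pos hp.pos k)]

theorem ded_aux [Finite S] {p : ℕ} (hp : p.Prime) (hp2 : p ≠ 2)
    (hn : ∀ (x : S) (k : ℕ), orderOf x = p ^ k → (zpowers x).Normal) (N : ℕ) :
    ∀ (a b : S) (k l : ℕ), orderOf a = p ^ k → orderOf b = p ^ l → k + l ≤ N → a * b = b * a := by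
  have hf : Fact p.Prime := ⟨hp⟩
  induction N with
  | zero =>
    intro a b k l ha hb hkl
    have hk : k = 0 := by omega
    rw [hk, pow_zero, orderOf_eq_one_iff] at ha
    rw [ha, one_mul, mul_one]
  | succ N ih =>
    intro a b k l ha hb hkl
    wlog hlk : l ≤ k generalizing a b k l
    · exact (this b a l k hb ha (by omega) (by omega)).symm
    by_contra hab
    rcases Nat.eq_zero_or_pos l with hl | hl
    · rw [hl, pow_zero, orderOf_eq_one_iff] at hb
      apply hab
      rw [hb, one_mul, mul_one]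
    obtain ⟨l, rfl⟩ : ∃ l', l = l' + 1 := ⟨l - 1, by omega⟩
    obtain ⟨k, rfl⟩ : ∃ k', k = k' + 1 := ⟨k - 1, by omega⟩
    set c : S := a * b * a⁻¹ * b⁻¹ with hc
    have hca : c ∈ zpowers a := by
      have h1 := (hn a _ ha).conj_mem a⁻¹ (inv_mem (mem_zpowers a)) b
      have h2 : c = a * (b * a⁻¹ * b⁻¹) := by rw [hc]; group
      rw [h2]; exact mul_mem (mem_zpowers a) h1
    have hcb : c ∈ zpowers b := by
      have h1 := (hn b _ hb).conj_mem b (mem_zpowers b) a
      exact mul_mem h1 (inv_mem (mem_zpowers b))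
    have hca' : a * c = c * a := comm_zpowers (x := a) (y := a) rfl a (mem_zpowers a) c hca
    have hcb' : b * c = c * b := comm_zpowers (x := b) (y := b) rfl b (mem_zpowers b) c hcb
    have hc1 : c ≠ 1 := by
      intro h
      apply hab
      have h1 : a * b * (b * a)⁻¹ = 1 := by rw [← h, hc]; group
      exact mul_inv_eq_one.1 h1
    -- `[a ^ n, b] = c ^ n`
    have hpow : ∀ n : ℕ, a ^ n * b * (a ^ n)⁻¹ = c ^ n * b := by
      intro n
      induction n with
      | zero => simp
      | succ n ihn =>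
        have h1 : a ^ (n + 1) * b * (a ^ (n + 1))⁻¹ = a * (a ^ n * b * (a ^ n)⁻¹) * a⁻¹ := by
          rw [pow_succ']; group
        rw [h1, ihn]
        have h2 : a * (c ^ n * b) * a⁻¹ = c ^ n * (a * b * a⁻¹) := by
          rw [← mul_assoc a, ((show Commute a c from hca').pow_right n).eq]; group
        rw [h2, show a * b * a⁻¹ = c * b by rw [hc]; group, pow_succ]
        group
    have hcp : c ^ p = 1 := by
      have h1 : orderOf (a ^ p) = p ^ k := by
        rw [orderOf_pow, ha, pow_succ, Nat.gcd_eq_right (Dvd.intro_left _ rfl), Nat.mul_div_cancel _ hp.pos]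
      have h2 := ih (a ^ p) b k (l + 1) h1 hb (by omega)
      have h3 := hpow p
      rw [h2, mul_inv_cancel_right] at h3
      exact (mul_eq_right.1 h3.symm)
    have hordc : orderOf c = p := orderOf_eq_prime hcp hc1
    have h1 := zpowers_bottom hp ha hca hcp hc1
    have h2 := zpowers_bottom hp hb hcb hcp hc1
    have h3 : a ^ p ^ k ∈ zpowers (b ^ p ^ l) := by
      rw [← h2, h1]; exact mem_zpowers _
    obtain ⟨j, hj⟩ := (isOfFinOrder_of_finite _).mem_powers_iff_mem_zpowers.2 h3
    change (b ^ p ^ l) ^ j = a ^ p ^ k at hj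
    have hpj : ¬ p ∣ j := by
      rintro ⟨m, rfl⟩
      have h4 : (b ^ p ^ l) ^ p = 1 := by
        rw [← pow_mul, ← pow_succ, ← hb]; exact pow_orderOf_eq_one b
      rw [pow_mul, h4, one_pow] at hj
      rw [← hj, zpowers_one_eq_bot, zpowers_eq_bot] at h1
      exact hc1 h1
    set x : S := (a⁻¹) ^ p ^ (k - l) with hx
    set y : S := b ^ j with hy
    have hxc : x * c = c * x := ((show Commute a c from hca').inv_left.pow_left _).eq
    have hyc : y * c = c * y := ((show Commute b c from hcb').pow_left _).eq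
    -- `y x = x y e`
    set e : S := y⁻¹ * x⁻¹ * y * x with he
    have hyx : y * x = x * y * e := by rw [he]; group
    have hec : e ∈ zpowers c := by
      have h4 := hpow (p ^ (k - l))
      have h5 : a ^ p ^ (k - l) = x⁻¹ := by rw [hx, inv_pow, inv_inv]
      rw [h5] at h4
      have h6 : x⁻¹ * y * x = (x⁻¹ * b * x⁻¹⁻¹) ^ j := by
        rw [conj_pow, inv_inv]
      have h7 : e = y⁻¹ * (x⁻¹ * y * x) := by rw [he]; group
      rw [h7, h6, h4, (show Commute (c ^ p ^ (k - l)) b from ((show Commute b c from hcb').symm.pow_left _)).mul_pow,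
        ← hy]
      have h8 : Commute y⁻¹ ((c ^ p ^ (k - l)) ^ j) := ((show Commute y c from hyc).inv_left.pow_right _).pow_right _
      rw [← mul_assoc, h8.eq, mul_assoc, inv_mul_cancel, mul_one]
      exact pow_mem (pow_mem (mem_zpowers c) _) _
    have hxe : x * e = e * x := by
      obtain ⟨m, hm⟩ := mem_zpowers_iff.1 hec
      rw [← hm]; exact ((show Commute x c from hxc).zpow_right m).eq
    have hye : y * e = e * y := by
      obtain ⟨m, hm⟩ := mem_zpowers_iff.1 hec
      rw [← hm]; exact ((show Commute y c from hyc).zpow_right m).eq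
    have hep : e ^ ((p ^ l).choose 2) = 1 := by
      have h4 : p ∣ (p ^ l).choose 2 := by
        apply hp.dvd_choose_pow (by norm_num)
        intro h
        rcases Nat.eq_zero_or_pos l with h0 | h0
        · rw [h0, pow_zero] at h; norm_num at h
        · have h5 : p ∣ 2 := h ▸ dvd_pow_self p h0.ne'
          exact hp2 ((Nat.prime_dvd_prime_iff_eq hp Nat.prime_two).1 h5)
      obtain ⟨m, hm⟩ := h4
      obtain ⟨i, hi⟩ := mem_zpowers_iff.1 hec
      have h5 : e ^ p = 1 := by
        rw [← hi, ← zpow_natCast, ← zpow_mul, mul_comm, zpow_mul, zpow_natCast, hcp, one_zpow]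
      rw [hm, pow_mul, h5, one_pow]
    have hd : (x * y) ^ p ^ l = 1 := by
      rw [mul_pow_class hyx hxe hye, hep, mul_one]
      have h4 : y ^ p ^ l = a ^ p ^ k := by rw [hy, ← pow_mul, mul_comm, pow_mul, hj]
      have h5 : x ^ p ^ l = (a ^ p ^ k)⁻¹ := by
        rw [hx, ← pow_mul, ← pow_add, inv_pow]
        congr 3
        omega
      rw [h4, h5, inv_mul_cancel]
    obtain ⟨m, hm, hmm⟩ := (Nat.dvd_prime_pow hp).1 (orderOf_dvd_of_pow_eq_one hd)
    have h4 := ih a (x * y) (k + 1) m ha hmm (by omega)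
    -- then `a` commutes with `y = b ^ j`
    have h5 : a * y = y * a := by
      have hax : x * a = a * x := ((Commute.refl a).inv_left.pow_left _).eq
      have h6 : x * (a * y) = x * (y * a) := by
        rw [← mul_assoc, hax, mul_assoc, h4]; group
      exact mul_left_cancel h6
    have h6 : a * b * a⁻¹ = c * b := by rw [hc]; group
    have h7 : (a * b * a⁻¹) ^ j = y := by
      rw [conj_pow, ← hy, h5, mul_inv_cancel_right]
    rw [h6, (show Commute c b from hcb'.symm).mul_pow, ← hy] at h7
    have h8 : c ^ j = 1 := mul_eq_right.1 h7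
    apply hpj
    rw [← hordc]
    exact orderOf_dvd_of_pow_eq_one h8

theorem odd_dedekind [Finite S] (hodd : ¬ 2 ∣ Nat.card S)
    (hn : ∀ (x : S) (p k : ℕ), p.Prime → orderOf x = p ^ k → (zpowers x).Normal) (a b : S) :
    a * b = b * a := by
  have h1 : ∀ (a b : S) (p k q l : ℕ), p.Prime → q.Prime → orderOf a = p ^ k → orderOf b = q ^ l →
      a * b = b * a := by
    intro a b p k q l hp hq ha hb
    by_cases hpq : p = q
    · subst hpq
      by_cases hp2 : p = 2
      · subst hp2
        rcases Nat.eq_zero_or_pos k with h | h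
        · rw [h, pow_zero, orderOf_eq_one_iff] at ha
          rw [ha, one_mul, mul_one]
        · exfalso
          apply hodd
          exact ((dvd_pow_self 2 h.ne').trans (ha ▸ dvd_rfl)).trans (orderOf_dvd_natCard a)
      · exact ded_aux hp hp2 (fun x k hx => hn x p k hp hx) (k + l) a b k l ha hb le_rfl
    · have hA := hn a p k hp ha
      have hB := hn b q l hq hb
      have h2 : a * b * a⁻¹ * b⁻¹ ∈ zpowers a := by
        have h1 := hA.conj_mem a⁻¹ (inv_mem (mem_zpowers a)) b
        have h2 : a * b * a⁻¹ * b⁻¹ = a * (b * a⁻¹ * b⁻¹) := by group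
        rw [h2]; exact mul_mem (mem_zpowers a) h1
      have h3 : a * b * a⁻¹ * b⁻¹ ∈ zpowers b :=
        mul_mem (hB.conj_mem b (mem_zpowers b) a) (inv_mem (mem_zpowers b))
      have h4 := inf_eq_bot hp hq hpq (isPGroup_zpowers ha) (isPGroup_zpowers hb) h2 h3
      have h5 : a * b * (b * a)⁻¹ = 1 := by rw [← h4]; group
      exact mul_inv_eq_one.1 h5
  have h2 : ∀ (a b : S) (q l : ℕ), q.Prime → orderOf b = q ^ l → a * b = b * a := by
    intro a b q l hq hb
    by_contra hab
    have hac : a ∉ centralizer ({b} : Set S) := fun h => hab (mem_centralizer_singleton_iff.1 h)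
    obtain ⟨h, -, r, v, hr, hv, hh⟩ := exists_ppow (centralizer ({b} : Set S)) (orderOf a) a rfl (orderOf_pos a) hac
    exact hh (mem_centralizer_singleton_iff.2 (h1 h b r v q l hr hq hv hb))
  by_contra hab
  have hac : b ∉ centralizer ({a} : Set S) := fun h => hab (mem_centralizer_singleton_iff.1 h).symm
  obtain ⟨h, -, r, v, hr, hv, hh⟩ := exists_ppow (centralizer ({a} : Set S)) (orderOf b) b rfl (orderOf_pos b) hac
  exact hh (mem_centralizer_singleton_iff.2 (h2 a h r v hr hv).symm)

end Cfsg.Agent.H546.MaxNor
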