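import Cfsg.Agent.H546.MaxNorRes

/-!
# The order of the solvable radical is coprime to 3, 7, 13, and its 2-elements lie in the residual
-/

set_option autoImplicit false
set_option linter.unusedSectionVars false

namespace Cfsg.Agent.H546.MaxNor

open Subgroup
open scoped Pointwise
open Cfsg.Agent.SignalizersComponents.ComponentExists

variable {G : Type*} [Group G]

theorem zpowers_mul_sup {R : Subgroup G} {x y : G} (hyR : y ∈ R) : zpowers (x * y) ⊔ R = zpowers x ⊔ R := by
  apply le_antisymm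
  · apply sup_le _ le_sup_right
    rw [zpowers_le]
    exact mul_mem (le_sup_left (a := zpowers x) (mem_zpowers _)) (le_sup_right (b := R) hyR)
  · apply sup_le _ le_sup_right
    rw [zpowers_le]
    have h1 : x * y * y⁻¹ ∈ zpowers (x * y) ⊔ R :=
      mul_mem (le_sup_left (a := zpowers (x * y)) (mem_zpowers _)) (le_sup_right (b := R) (inv_mem hyR))
    rwa [mul_inv_cancel_right] at h1

theorem nor_aux {p : ℕ} (hp : p.Prime) {R : Subgroup G} {x y n : G} (hx : orderOf x = p) (hy : orderOf y = p)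
    (hxR : x ∉ R) (hyR : y ∈ R) (hxy : x * y = y * x) (hny : n * y = y * n) {i j : ℤ}
    (hi : (x * y) ^ i = n * (x * y) * n⁻¹) (hj : x ^ j = n * x * n⁻¹) : x * n = n * x := by
  have hxp : x ^ p = 1 := by rw [← hx]; exact pow_orderOf_eq_one x
  have h8 : n * (x * y) * n⁻¹ = n * x * n⁻¹ * y := by
    have h9 : y * n⁻¹ = n⁻¹ * y := ((show Commute n y from hny).inv_left.symm).eq
    calc n * (x * y) * n⁻¹ = n * x * (y * n⁻¹) := by group
      _ = n * x * (n⁻¹ * y) := by rw [h9]
      _ = n * x * n⁻¹ * y := by group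
  rw [h8, ← hj, (show Commute x y from hxy).mul_zpow] at hi
  have h9 : x ^ (j - i) = y ^ (i - 1) := by
    have h11 : y ^ i = y ^ (i - 1) * y := by
      rw [← zpow_add_one]; congr 1; ring
    have h12 : x ^ j = x ^ i * x ^ (j - i) := by
      rw [← zpow_add]; congr 1; ring
    rw [h11, h12, ← mul_assoc] at hi
    have h13 := mul_right_cancel hi
    exact (mul_left_cancel h13).symm
  have h10 : (p : ℤ) ∣ j - i :=
    dvd_of_zpow_mem (k := 1) hp hxR (by rw [pow_one]; exact hxp) (h9 ▸ zpow_mem hyR _)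
  have h11 : x ^ (j - i) = 1 := by
    rw [← orderOf_dvd_iff_zpow_eq_one, hx]; exact h10
  rw [h11] at h9
  have h12 : (p : ℤ) ∣ i - 1 := by
    rw [← hy, orderOf_dvd_iff_zpow_eq_one]; exact h9.symm
  have h13 : (p : ℤ) ∣ j - 1 := by
    have : j - 1 = (j - i) + (i - 1) := by ring
    rw [this]; exact dvd_add h10 h12
  have h14 : x ^ (j - 1) = 1 := by
    rw [← orderOf_dvd_iff_zpow_eq_one, hx]; exact h13
  rw [zpow_sub, zpow_one, mul_inv_eq_one] at h14
  rw [h14] at hj
  exact eq_mul_inv_iff_mul_eq.1 hj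

theorem Res.not_dvd [Finite G] {R N : Subgroup G} (D : Rad R) (E : Res R N)
    (h2 : IsPGroup 2 (N ⊓ R : Subgroup G)) {a : ℕ} (hN : Nat.card N = 2 ^ a * 1092) {p : ℕ}
    (h : p = 3 ∨ p = 7 ∨ p = 13) : ¬ p ∣ Nat.card R := by
  intro hpR
  have hp : p.Prime := by rcases h with rfl | rfl | rfl <;> norm_num
  have hf : Fact p.Prime := ⟨hp⟩
  have hp2 : p ≠ 2 := by omega
  have hpN : p ∣ Nat.card N := by
    rw [hN]; rcases h with rfl | rfl | rfl
    · exact Dvd.dvd.mul_left (by norm_num) _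
    · exact Dvd.dvd.mul_left (by norm_num) _
    · exact Dvd.dvd.mul_left (by norm_num) _
  obtain ⟨y₀, hy₀⟩ := exists_prime_orderOf_dvd_card' p hpR
  set y : G := (y₀ : G) with hyy
  have hyR : y ∈ R := y₀.2
  have hyo : orderOf y = p := by rw [← hy₀]; exact orderOf_submonoid y₀
  let P : Sylow p N := default
  have hPc : Nat.card P = p := by
    obtain ⟨n, hn⟩ := IsPGroup.iff_card.1 P.isPGroup'
    have h1 : p ^ n ∣ 2 ^ a * 1092 := by rw [← hN, ← hn]; exact Subgroup.card_subgroup_dvd_card _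
    have h3 : (p ^ n).Coprime (2 ^ a) := Nat.Coprime.pow _ _ ((Nat.coprime_primes hp Nat.prime_two).2 hp2)
    have h4 := h3.dvd_of_dvd_mul_left h1
    have h5 : n < 2 := by
      by_contra hcon
      have h6 : p ^ 2 ∣ 1092 := (pow_dvd_pow p (by omega)).trans h4
      rcases h with rfl | rfl | rfl <;> norm_num at h6
    have h7 : p ∣ Nat.card P := P.dvd_card_of_dvd_card hpN
    have h8 : n ≠ 0 := by
      rintro rfl
      rw [hn, pow_zero] at h7
      exact hp.one_lt.ne' (Nat.dvd_one.1 h7)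
    have h9 : n = 1 := by omega
    rw [hn, h9, pow_one]
  have hP : normalizer ((P : Subgroup N) : Set N) ≤ centralizer (P : Set N) := by
    intro n hn
    rw [mem_centralizer_iff]
    intro x hx
    change x ∈ (P : Subgroup N) at hx
    by_cases hx1 : x = 1
    · rw [hx1, one_mul, mul_one]
    have hox : orderOf x = p := by
      have h1 : orderOf x ∣ p := by
        rw [← hPc]
        exact Subgroup.orderOf_dvd_natCard (P : Subgroup N) hx
      exact ((Nat.dvd_prime hp).1 h1).resolve_left (fun h => hx1 (orderOf_eq_one_iff.1 h))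
    have hzx : zpowers x = P := by
      apply Subgroup.eq_of_le_of_card_ge
      · rw [zpowers_le]; exact hx
      · rw [Nat.card_zpowers, hox]; exact hPc.le
    have hoxG : orderOf (x : G) = p := by rw [orderOf_submonoid, hox]
    have hxp : (x : G) ^ p = 1 := by
      have := pow_orderOf_eq_one (x : G)
      rwa [hoxG] at this
    have hxR : (x : G) ∉ R := by
      intro hxR
      obtain ⟨k, hk⟩ := h2 ⟨x, x.2, hxR⟩
      have h4 : (x : G) ^ 2 ^ k = 1 := congrArg Subtype.val hk
      apply hx1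
      apply Subtype.ext
      exact eq_one_of_pow (k := 1) hp Nat.prime_two hp2 (by rw [pow_one]; exact hxp) h4
    have hxy : (x : G) * y = y * x := E.cent x x.2 y hyR
    have hxyR : (x : G) * y ∉ R := by
      intro h1
      exact hxR ((R.mul_mem_cancel_right hyR).1 h1)
    have hxyo : orderOf ((x : G) * y) = p := by
      apply orderOf_eq_prime
      · rw [(show Commute (x : G) y from hxy).mul_pow, hxp, one_mul, ← hyo, pow_orderOf_eq_one]
      · intro h1; rw [h1] at hxyR; exact hxyR (one_mem _)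
    -- the element `n` normalizes `⟨x⟩`
    have hnx : (n : G) ∈ normalizer (zpowers (x : G) : Set G) := by
      apply mem_nor
      intro w hw
      obtain ⟨i, rfl⟩ := mem_zpowers_iff.1 hw
      rw [← conj_zpow]
      apply zpow_mem
      have h4 := conj_mem hn hx
      rw [← hzx] at h4
      obtain ⟨j, hj⟩ := mem_zpowers_iff.1 h4
      exact mem_zpowers_iff.2 ⟨j, congrArg Subtype.val hj⟩
    have t1 : TwoP (zpowers (x : G)) := twoP_of_isPGroup hp (isPGroup_zpowers (k := 1) (by rw [pow_one, hoxG]))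
    have t2 : TwoP (zpowers ((x : G) * y)) :=
      twoP_of_isPGroup hp (isPGroup_zpowers (k := 1) (by rw [pow_one, hxyo]))
    have h4 := D.nor_sup t1 (by rw [zpowers_le]; exact hxR)
    have h5 := D.nor_sup t2 (by rw [zpowers_le]; exact hxyR)
    have h6 : zpowers ((x : G) * y) ⊔ R = zpowers (x : G) ⊔ R := zpowers_mul_sup hyR
    rw [h6, ← h4] at h5
    have h7 : (n : G) ∈ normalizer (zpowers ((x : G) * y) : Set G) := by rw [h5]; exact hnx
    obtain ⟨i, hi⟩ := mem_zpowers_iff.1 (conj_mem h7 (mem_zpowers _))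
    obtain ⟨j, hj⟩ := mem_zpowers_iff.1 (conj_mem hnx (mem_zpowers _))
    have hny : (n : G) * y = y * n := E.cent n n.2 y hyR
    apply Subtype.ext
    exact nor_aux hp hoxG hyo hxR hyR hxy hny hi hj
  have h3 := MonoidHom.ker_transferSylow_isComplement' P hP
  have h4 : commutator N ≤ (MonoidHom.transferSylow P hP).ker := by
    rw [commutator_def, Subgroup.commutator_le]
    intro x _ y _
    rw [MonoidHom.mem_ker, map_commutatorElement, commutatorElement_eq_one_iff_mul_comm]
    have h5 : ∀ u v : P, u * v = v * u := fun u v =>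
      Subtype.ext ((mem_centralizer_iff.1 (hP (le_normalizer u.2)) v v.2).symm)
    exact h5 _ _
  have hL : commutator N = ⊤ := by
    apply Subgroup.map_injective N.subtype_injective
    rw [Subgroup.map_subtype_commutator, E.perf, ← MonoidHom.range_eq_map, Subgroup.range_subtype]
  rw [hL, top_le_iff] at h4
  have h6 : (MonoidHom.transferSylow P hP).ker.index = Nat.card P := h3.symm.index_eq_card
  rw [h4, Subgroup.index_top, hPc] at h6
  exact hp.one_lt.ne h6

theorem Res.lift [Finite G] {R N : Subgroup G} [R.Normal] (E : Res R N) (w : G ⧸ R) :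
    ∃ x ∈ N, QuotientGroup.mk' R x = w := by
  have hNn := E.normal
  obtain ⟨g, hg⟩ := QuotientGroup.mk'_surjective R w
  have h1 : g ∈ N ⊔ R := by rw [E.sup]; exact mem_top g
  obtain ⟨n, hn, r, hr, rfl⟩ := (mem_sup_nor (A := N) (B := R)
    (by rw [Subgroup.normalizer_eq_top N]; exact le_top)).1 h1
  refine ⟨n, hn, ?_⟩
  rwa [map_mul, show QuotientGroup.mk' R r = 1 from (QuotientGroup.eq_one_iff r).2 hr, mul_one] at hg

theorem zpow_of_sq {x : G} (h : x * x = 1) (i : ℤ) : (Even i ∧ x ^ i = 1) ∨ (¬ Even i ∧ x ^ i = x) := by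
  rcases Int.even_or_odd' i with ⟨j, rfl | rfl⟩
  · left
    exact ⟨even_two_mul j, by rw [zpow_mul, zpow_ofNat, pow_two, h, one_zpow]⟩
  · right
    refine ⟨Int.not_even_two_mul_add_one j, ?_⟩
    rw [zpow_add, zpow_mul, zpow_ofNat, pow_two, h, one_zpow, one_mul, zpow_one]

theorem Res.two_mem [Finite G] {R N : Subgroup G} [R.Normal] (D : Rad R) (E : Res R N)
    (h2 : IsPGroup 2 (N ⊓ R : Subgroup G)) {U : Subgroup (G ⧸ R)} {g z t u : G ⧸ R} {s r v : ℕ}
    (hX : PM (G ⧸ R)) (L : Loc U g r v) (O : Out U g z t u s) {y : G} {m : ℕ} (hyR : y ∈ R)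
    (hyo : orderOf y = 2 ^ m) : y ∈ N := by
  have hNn := E.normal
  have hel := (L.elem hX).1
  have hab := (L.elem hX).2
  obtain ⟨x1, hx1, hz⟩ := E.lift z
  obtain ⟨x2, hx2, hu⟩ := E.lift u
  obtain ⟨i₀, -, hi₀⟩ := O.trans u O.hu O.hu1
  obtain ⟨ρ, hρN, hρ⟩ := E.lift (g ^ i₀)
  set π := QuotientGroup.mk' R with hπ
  have hπk : ∀ x, π x = 1 ↔ x ∈ R := fun x => QuotientGroup.eq_one_iff x
  set W : Subgroup G := U.comap π ⊓ N with hW
  have hWp : IsPGroup 2 W := by
    intro w
    have hw1 : π w ∈ U := w.2.1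
    obtain ⟨k, hk⟩ := L.two ⟨π w, hw1⟩
    have hk' : π w ^ 2 ^ k = 1 := congrArg Subtype.val hk
    rw [← map_pow, hπk] at hk'
    obtain ⟨l, hl⟩ := h2 ⟨(w : G) ^ 2 ^ k, pow_mem w.2.2 _, hk'⟩
    refine ⟨k + l, Subtype.ext ?_⟩
    have hl' : ((w : G) ^ 2 ^ k) ^ 2 ^ l = 1 := congrArg Subtype.val hl
    rw [← pow_mul, ← pow_add] at hl'
    exact hl'
  have hTp : IsPGroup 2 (W ⊔ zpowers y : Subgroup G) := by
    apply isPGroup_sup hWp (isPGroup_zpowers hyo)
    apply le_nor_of_comm
    intro a ha b hb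
    exact E.cent a ha.2 b ((zpowers_le.2 hyR) hb)
  have hx1W : x1 ∈ W := ⟨by change π x1 ∈ U; rw [hz]; exact O.hz, hx1⟩
  have hx2W : x2 ∈ W := ⟨by change π x2 ∈ U; rw [hu]; exact O.hu, hx2⟩
  set H : Subgroup G := zpowers (x1 * y) ⊔ zpowers x2 with hH
  have hHT : H ≤ W ⊔ zpowers y := by
    apply sup_le
    · rw [zpowers_le]
      exact mul_mem (le_sup_left (a := W) hx1W) (le_sup_right (b := zpowers y) (mem_zpowers y))
    · rw [zpowers_le]
      exact le_sup_left (a := W) hx2W
  have hHp : IsPGroup 2 H := hTp.to_le hHT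
  have hHR : ¬ H ≤ R := by
    intro h
    have h1 := h (le_sup_right (b := zpowers x2) (mem_zpowers x2))
    rw [← hπk, hu] at h1
    exact O.hu1 h1
  have hmap : H.map π = U := by
    rw [hH, Subgroup.map_sup, MonoidHom.map_zpowers, MonoidHom.map_zpowers, map_mul, hz, hu,
      (hπk y).2 hyR, mul_one]
    apply le_antisymm
    · exact sup_le (by rw [zpowers_le]; exact O.hz) (by rw [zpowers_le]; exact O.hu)
    · intro w hw
      have hzm : z ∈ zpowers z ⊔ zpowers u := le_sup_left (a := zpowers z) (mem_zpowers z)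
      have hum : u ∈ zpowers z ⊔ zpowers u := le_sup_right (a := zpowers z) (mem_zpowers u)
      rcases O.mem w hw with h | h | h | h <;> rw [h]
      · exact one_mem _
      · exact hzm
      · exact hum
      · exact mul_mem hzm hum
  have hsup : H ⊔ R = U.comap π := by
    rw [← hmap, Subgroup.comap_map_eq, hπ, QuotientGroup.ker_mk']
  have hρn : ρ ∈ normalizer (H : Set G) := by
    rw [D.nor_sup (twoP_of_isPGroup Nat.prime_two hHp) hHR, hsup]
    apply mem_nor
    intro w hw
    change π w ∈ U at hw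
    change π (ρ * w * ρ⁻¹) ∈ U
    rw [map_mul, map_mul, map_inv, hρ]
    exact conj_mem (pow_mem L.nor i₀) hw
  have hmem := conj_mem hρn (le_sup_left (a := zpowers (x1 * y)) (b := zpowers x2) (mem_zpowers (x1 * y)))
  set κ := QuotientGroup.mk' N with hκ
  have hκk : ∀ x, κ x = 1 ↔ x ∈ N := fun x => QuotientGroup.eq_one_iff x
  have hzu : Commute z u := hab z O.hz u O.hu
  let Λ : Subgroup G :=
    { carrier := {w | ∃ i j : ℤ, π w = z ^ i * u ^ j ∧ κ w = κ y ^ i}
      one_mem' := ⟨0, 0, by rw [map_one, zpow_zero, zpow_zero, mul_one], by rw [map_one, zpow_zero]⟩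
      mul_mem' := by
        rintro a b ⟨i, j, h1, h3⟩ ⟨i', j', h4, h5⟩
        refine ⟨i + i', j + j', ?_, ?_⟩
        · rw [map_mul, h1, h4, zpow_add, zpow_add]
          have h6 : u ^ j * z ^ i' = z ^ i' * u ^ j := ((hzu.zpow_zpow i' j).symm).eq
          calc z ^ i * u ^ j * (z ^ i' * u ^ j') = z ^ i * (u ^ j * z ^ i') * u ^ j' := by group
            _ = z ^ i * (z ^ i' * u ^ j) * u ^ j' := by rw [h6]
            _ = z ^ i * z ^ i' * (u ^ j * u ^ j') := by group
        · rw [map_mul, h3, h5, zpow_add]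
      inv_mem' := by
        rintro a ⟨i, j, h1, h3⟩
        refine ⟨-i, -j, ?_, ?_⟩
        · rw [map_inv, h1, mul_inv_rev, ← zpow_neg, ← zpow_neg]
          exact ((hzu.zpow_zpow (-i) (-j)).symm).eq
        · rw [map_inv, h3, zpow_neg] }
  have hHΛ : H ≤ Λ := by
    apply sup_le
    · rw [zpowers_le]
      exact ⟨1, 0, by rw [map_mul, hz, (hπk y).2 hyR, mul_one, zpow_one, zpow_zero, mul_one],
        by rw [map_mul, (hκk x1).2 hx1, one_mul, zpow_one]⟩
    · rw [zpowers_le]
      exact ⟨0, 1, by rw [hu, zpow_one, zpow_zero, one_mul], by rw [(hκk x2).2 hx2, zpow_zero]⟩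
  obtain ⟨i, j, h1, h3⟩ := hHΛ hmem
  rw [map_mul, map_mul, map_inv, map_mul, hρ, hz, (hπk y).2 hyR, mul_one, ← hi₀] at h1
  rw [map_mul, map_mul, map_inv, map_mul, (hκk ρ).2 hρN, (hκk x1).2 hx1, one_mul, one_mul, inv_one,
    mul_one] at h3
  have hieven : Even i := by
    by_contra hodd
    rcases zpow_of_sq (hel z O.hz) i with h | h
    · exact hodd h.1
    · rw [h.2] at h1
      rcases zpow_of_sq (hel u O.hu) j with h' | h'
      · rw [h'.2, mul_one] at h1
        exact O.huz h1
      · rw [h'.2] at h1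
        exact O.hz1 (mul_eq_right.1 h1.symm)
  rw [← hκk]
  by_contra hne
  have h4 : κ y ^ (i - 1) = 1 := by
    rw [zpow_sub, zpow_one, ← h3, mul_inv_cancel]
  have h5 : κ y ^ 2 ^ m = 1 := by
    rw [← map_pow, ← hyo, pow_orderOf_eq_one, map_one]
  obtain ⟨k, -, hk⟩ := (Nat.dvd_prime_pow Nat.prime_two).1 (orderOf_dvd_of_pow_eq_one h5)
  have hk0 : k ≠ 0 := by
    rintro rfl
    rw [pow_zero, orderOf_eq_one_iff] at hk
    exact hne hk
  have h6 : ((orderOf (κ y) : ℕ) : ℤ) ∣ i - 1 := orderOf_dvd_iff_zpow_eq_one.2 h4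
  rw [hk] at h6
  have h7 : (2 : ℤ) ∣ i - 1 := by
    have : (2 : ℤ) ∣ ((2 ^ k : ℕ) : ℤ) := by push_cast; exact dvd_pow_self 2 hk0
    exact this.trans h6
  obtain ⟨c, hc⟩ := hieven
  omega

end Cfsg.Agent.H546.MaxNor
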