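import Cfsg.Agent.H546.MaxNorRad
import Cfsg.Agent.Lib.PSL2Mult
import Cfsg.Agent.OddCyclic.CoverTrans

/-!
# The perfect residual centralizes the solvable radical
-/

set_option autoImplicit false
set_option linter.unusedSectionVars false

namespace Cfsg.Agent.H546.MaxNor

open Subgroup
open scoped Pointwise
open Cfsg.Agent.SignalizersComponents.ComponentExists

variable {G : Type*} [Group G]

theorem dvd_of_zpow_mem {p k : ℕ} (hp : p.Prime) {R : Subgroup G} {x : G} (hx : x ∉ R)
    (hxp : x ^ p ^ k = 1) {i : ℤ} (hi : x ^ i ∈ R) : (p : ℤ) ∣ i := by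
  by_contra hcon
  have h1 : IsCoprime (p : ℤ) i := (Nat.prime_iff_prime_int.1 hp).coprime_iff_not_dvd.2 hcon
  have h2 : IsCoprime ((p : ℤ) ^ k) i := h1.pow_left
  obtain ⟨a, b, hab⟩ := h2
  apply hx
  have h3 : x ^ ((p : ℤ) ^ k) = 1 := by
    rw [← Nat.cast_pow, zpow_natCast, hxp]
  have h4 : x = (x ^ i) ^ b := by
    calc x = x ^ (a * (p : ℤ) ^ k + b * i) := by rw [hab, zpow_one]
      _ = (x ^ ((p : ℤ) ^ k)) ^ a * (x ^ i) ^ b := by
        rw [zpow_add, ← zpow_mul, ← zpow_mul, mul_comm a, mul_comm b]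
      _ = (x ^ i) ^ b := by rw [h3, one_zpow, one_mul]
  rw [h4]
  exact zpow_mem hi b

theorem comm_of_pow [Finite G] {p k r l : ℕ} (hp : p.Prime) (hr : r.Prime) (hpr : p ≠ r) {x y : G}
    (hx : orderOf x = p ^ k) (hy : orderOf y = r ^ l) {m : ℤ} (h : y * x * y⁻¹ = x ^ (1 + p * m)) :
    x * y = y * x := by
  have h1 : ∀ n : ℕ, y ^ n * x * (y ^ n)⁻¹ = x ^ ((1 + p * m) ^ n) := by
    intro n
    induction n with
    | zero => simp
    | succ n ih =>
      have h2 : y ^ (n + 1) * x * (y ^ (n + 1))⁻¹ = y ^ n * (y * x * y⁻¹) * (y ^ n)⁻¹ := by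
        rw [pow_succ]; group
      rw [h2, h, ← conj_zpow, ih, ← zpow_mul, pow_succ]
  have h2 : y ^ p ^ k * x * (y ^ p ^ k)⁻¹ = x := by
    rw [h1]
    have h3 : ((p : ℤ) ^ (k + 1)) ∣ (1 + p * m) ^ p ^ k - 1 ^ p ^ k :=
      dvd_sub_pow_of_dvd_sub (by rw [add_sub_cancel_left]; exact Dvd.intro m rfl) k
    rw [one_pow] at h3
    have h4 : ((orderOf x : ℕ) : ℤ) ∣ (1 + p * m) ^ p ^ k - 1 := by
      rw [hx]; push_cast
      exact (pow_dvd_pow _ (Nat.le_succ k)).trans h3
    have h5 : x ^ ((1 + (p : ℤ) * m) ^ p ^ k - 1) = 1 := orderOf_dvd_iff_zpow_eq_one.1 h4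
    rw [zpow_sub, zpow_one] at h5
    exact mul_inv_eq_one.1 h5
  have h3 : (p ^ k).Coprime (orderOf y) := by
    rw [hy]; exact Nat.Coprime.pow _ _ ((Nat.coprime_primes hp hr).2 hpr)
  obtain ⟨n, hn⟩ := exists_pow_eq_self_of_coprime h3
  have h4 : Commute (y ^ p ^ k) x := mul_inv_eq_iff_eq_mul.1 h2
  have h5 := h4.pow_left n
  rw [hn] at h5
  exact h5.symm

/-- elements of coprime prime power orders outside and inside the radical commute -/
theorem Rad.comm [Finite G] {R : Subgroup G} (D : Rad R) {p k r l : ℕ} (hp : p.Prime) (hr : r.Prime)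
    (hpr : p ≠ r) {x y : G} (hx : orderOf x = p ^ k) (hxR : x ∉ R) (hyR : y ∈ R) (hy : orderOf y = r ^ l) :
    x * y = y * x := by
  have hn := D.normal
  have hle : ¬ zpowers x ≤ R := by rw [zpowers_le]; exact hxR
  have h1 := D.le_nor (twoP_of_isPGroup hp (isPGroup_zpowers hx)) hle hyR
  obtain ⟨i, hi⟩ := mem_zpowers_iff.1 (conj_mem h1 (mem_zpowers x))
  have h2 : x ^ (i - 1) ∈ R := by
    rw [zpow_sub, zpow_one, hi]
    have h3 : y * x * y⁻¹ * x⁻¹ = y * (x * y⁻¹ * x⁻¹) := by group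
    rw [h3]
    exact mul_mem hyR (hn.conj_mem _ (inv_mem hyR) x)
  obtain ⟨m, hm⟩ := dvd_of_zpow_mem hp hxR (by rw [← hx]; exact pow_orderOf_eq_one x) h2
  refine comm_of_pow hp hr hpr hx hy (m := m) ?_
  rw [← hi, ← hm]
  congr 1
  ring

/-- there is a `p`-element outside a normal subgroup of index divisible by `p` -/
theorem exists_lift [Finite G] {R : Subgroup G} {p : ℕ} (hp : p.Prime) (hd : p ∣ R.index) :
    ∃ (x : G) (k : ℕ), orderOf x = p ^ k ∧ x ∉ R := by
  have hf : Fact p.Prime := ⟨hp⟩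
  let P : Sylow p G := default
  have h1 : ¬ (P : Subgroup G) ≤ R := by
    intro h
    exact P.not_dvd_index (hd.trans (Subgroup.index_dvd_of_le h))
  obtain ⟨x, hxP, hxR⟩ := Set.not_subset.1 h1
  obtain ⟨k, hk⟩ := IsPGroup.iff_orderOf.1 P.isPGroup' ⟨x, hxP⟩
  exact ⟨x, k, by rw [← hk]; exact (orderOf_submonoid (⟨x, hxP⟩ : (P : Subgroup G))), hxR⟩

/-- a perfect normal subgroup `N` with solvable quotient -/
theorem exists_residual (G : Type*) [Group G] [Finite G] : ∃ N : Subgroup G, N.Normal ∧ ⁅N, N⁆ = N ∧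
    (Group.IsSolvable N → Group.IsSolvable G) ∧
    ∀ M : Subgroup G, M.Normal → ∀ R : Subgroup G, Group.IsSolvable R → M ⊔ R = ⊤ → N ≤ M := by
  obtain ⟨N, ⟨n, hn⟩, hmin⟩ := Set.Finite.exists_minimalFor (fun W : Subgroup G => Nat.card W)
    {W : Subgroup G | ∃ n, derivedSeries G n = W} (Set.toFinite _) ⟨⊤, 0, rfl⟩
  have hperf : ⁅N, N⁆ = N := by
    apply Subgroup.eq_of_le_of_card_ge
    · have : N.Normal := by rw [← hn]; infer_instance
      exact Subgroup.commutator_le_left N N
    · refine hmin (j := ⁅N, N⁆) ⟨n + 1, ?_⟩ ?_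
      · rw [derivedSeries_succ, hn]
      · have : N.Normal := by rw [← hn]; infer_instance
        exact Subgroup.card_le_of_le (Subgroup.commutator_le_left N N)
  have hall : ∀ k, N ≤ derivedSeries G k := by
    intro k
    induction k with
    | zero => exact le_top
    | succ k ih =>
      rw [derivedSeries_succ, ← hperf]
      exact Subgroup.commutator_mono ih ih
  refine ⟨N, by rw [← hn]; infer_instance, hperf, ?_, ?_⟩
  · intro hs
    have hb : N = ⊥ := by
      by_contra hne
      have : Nontrivial N := (Subgroup.nontrivial_iff_ne_bot N).2 hne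
      have h1 : commutator N < ⊤ := Group.IsSolvable.commutator_lt_top_of_nontrivial N
      have h2 : (commutator N).map N.subtype < (⊤ : Subgroup N).map N.subtype :=
        (Subgroup.map_lt_map_iff_of_injective N.subtype_injective).2 h1
      rw [Subgroup.map_subtype_commutator, hperf, ← MonoidHom.range_eq_map, Subgroup.range_subtype] at h2
      exact lt_irrefl _ h2
    exact ⟨⟨n, by rw [hn, hb]⟩⟩
  · intro M hM R hR hMR
    have hsol : Group.IsSolvable (G ⧸ M) := by
      refine Group.isSolvable_of_surjective (f := (QuotientGroup.mk' M).comp R.subtype) ?_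
      intro y
      obtain ⟨g, rfl⟩ := QuotientGroup.mk'_surjective M y
      have h1 : g ∈ M ⊔ R := by rw [hMR]; exact mem_top g
      obtain ⟨m, hm, r, hr, rfl⟩ := (mem_sup_nor (A := M) (B := R)
        (by rw [Subgroup.normalizer_eq_top M]; exact le_top)).1 h1
      refine ⟨⟨r, hr⟩, ?_⟩
      change QuotientGroup.mk' M r = QuotientGroup.mk' M (m * r)
      rw [map_mul, show QuotientGroup.mk' M m = 1 from (QuotientGroup.eq_one_iff m).2 hm, one_mul]
    obtain ⟨k, hk⟩ := hsol.solvable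
    have h1 := (Subgroup.map_mono (f := QuotientGroup.mk' M) (hall k)).trans
      (map_derivedSeries_le_derivedSeries (QuotientGroup.mk' M) k)
    rw [hk, le_bot_iff, Subgroup.map_eq_bot_iff, QuotientGroup.ker_mk'] at h1
    exact h1

theorem Rad.sup [Finite G] {R : Subgroup G} [hRn : R.Normal] (hs : IsSimpleGroup (G ⧸ R))
    {K : Subgroup G} (hK : K.Normal) (hKR : ¬ K ≤ R) : K ⊔ R = ⊤ := by
  have hπ : Function.Surjective (QuotientGroup.mk' R) := QuotientGroup.mk'_surjective R
  have h1 : (K.map (QuotientGroup.mk' R)).Normal := hK.map _ hπ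
  rcases hs.eq_bot_or_eq_top_of_normal _ h1 with h | h
  · rw [Subgroup.map_eq_bot_iff, QuotientGroup.ker_mk'] at h
    exact absurd h hKR
  · have h2 := congrArg (Subgroup.comap (QuotientGroup.mk' R)) h
    rw [Subgroup.comap_map_eq, QuotientGroup.ker_mk', Subgroup.comap_top] at h2
    exact h2

/-- the residual centralizes the radical -/
theorem Rad.cent [Finite G] {R : Subgroup G} (D : Rad R) [R.Normal] (hs : IsSimpleGroup (G ⧸ R))
    (h3 : 3 ∣ R.index) (h7 : 7 ∣ R.index) {N : Subgroup G}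
    (hN : ∀ M : Subgroup G, M.Normal → ∀ R : Subgroup G, Group.IsSolvable R → M ⊔ R = ⊤ → N ≤ M) :
    ∀ x ∈ N, ∀ y ∈ R, x * y = y * x := by
  have hn := D.normal
  have key : ∀ r : ℕ, r.Prime → ∀ x ∈ N, ∀ y ∈ R, ∀ l, orderOf y = r ^ l → x * y = y * x := by
    intro r hr
    let C : Subgroup G :=
      { carrier := {x | ∀ y ∈ R, ∀ l, orderOf y = r ^ l → x * y = y * x}
        one_mem' := by intro y _ _ _; rw [one_mul, mul_one]
        mul_mem' := by
          intro a b ha hb y hy l hl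
          rw [mul_assoc, hb y hy l hl, ← mul_assoc, ha y hy l hl, mul_assoc]
        inv_mem' := by
          intro a ha y hy l hl
          exact ((show Commute a y from ha y hy l hl).inv_left).eq }
    have hCn : C.Normal := by
      refine ⟨fun x hx g y hy l hl => ?_⟩
      have h1 : g⁻¹ * y * g ∈ R := by
        have := hn.conj_mem y hy g⁻¹
        rwa [inv_inv] at this
      have h2 : orderOf (g⁻¹ * y * g) = r ^ l := by
        rw [← hl]
        have h4 : g⁻¹ * y * g = MulAut.conj g⁻¹ y := by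
          rw [MulAut.conj_apply, inv_inv]
        rw [h4]
        exact MulEquiv.orderOf_eq (MulAut.conj g⁻¹) y
      have h4 := hx _ h1 l h2
      calc g * x * g⁻¹ * y = g * (x * (g⁻¹ * y * g)) * g⁻¹ := by group
        _ = g * ((g⁻¹ * y * g) * x) * g⁻¹ := by rw [h4]
        _ = y * (g * x * g⁻¹) := by group
    have hCR : ¬ C ≤ R := by
      have : ∃ p : ℕ, p.Prime ∧ p ≠ r ∧ p ∣ R.index := by
        by_cases hr3 : r = 3
        · exact ⟨7, by norm_num, by omega, h7⟩
        · exact ⟨3, by norm_num, fun h => hr3 h.symm, h3⟩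
      obtain ⟨p, hp, hpr, hpd⟩ := this
      obtain ⟨x, k, hx, hxR⟩ := exists_lift hp hpd
      intro hle
      exact hxR (hle (fun y hy l hl => D.comm hp hr hpr hx hxR hy hl))
    have h1 := Rad.sup hs hCn hCR
    intro x hx
    exact hN C hCn R D.solv h1 hx
  intro x hx y hy
  by_contra hxy
  have h1 : y ∉ centralizer ({x} : Set G) := fun h => hxy (mem_centralizer_singleton_iff.1 h).symm
  obtain ⟨h, hh, r, v, hr, hv, hhC⟩ := exists_ppow (centralizer ({x} : Set G)) (orderOf y) y rfl (orderOf_pos y) h1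
  apply hhC
  rw [mem_centralizer_singleton_iff]
  exact (key r hr x hx h ((zpowers_le.2 hy) hh) v hv).symm

end Cfsg.Agent.H546.MaxNor
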