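import Cfsg.Agent.H546.MaxNorLift

/-!
# The structure of the perfect residual
-/

set_option autoImplicit false
set_option linter.unusedSectionVars false

namespace Cfsg.Agent.H546.MaxNor

open Subgroup
open scoped Pointwise
open Cfsg.Agent.SignalizersComponents.ComponentExists

variable {G : Type*} [Group G]

/-- The data of the perfect residual `N`. -/
structure Res (R N : Subgroup G) : Prop where
  normal : N.Normal
  perf : ⁅N, N⁆ = N
  cent : ∀ x ∈ N, ∀ y ∈ R, x * y = y * x
  sup : N ⊔ R = ⊤

theorem Res.struct [Finite G] {R N : Subgroup G} [R.Normal] (hs : IsSimpleGroup (G ⧸ R)) (E : Res R N) {F : Type} [Field F] [Fintype F]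
    (hF : Fintype.card F = 13) (e : (G ⧸ R) ≃* Matrix.ProjectiveSpecialLinearGroup (Fin 2) F) :
    (Nonempty (N ≃* Matrix.ProjectiveSpecialLinearGroup (Fin 2) (ZMod 13)) ∨
      Nonempty (N ≃* Matrix.SpecialLinearGroup (Fin 2) (ZMod 13))) ∧
    IsPGroup 2 (N ⊓ R : Subgroup G) ∧ ∃ a, Nat.card N = 2 ^ a * 1092 := by
  have hodd : Odd (Fintype.card F) := by rw [hF]; decide
  have hNn := E.normal
  have hcard : Nat.card (Matrix.ProjectiveSpecialLinearGroup (Fin 2) F) = 1092 := by
    have h1 := Cfsg.Agent.ClassicalGeometry.PSL2Basic.card_PSL2_odd (F := F) hodd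
    rw [hF] at h1
    omega
  let f : N →* Matrix.ProjectiveSpecialLinearGroup (Fin 2) F :=
    e.toMonoidHom.comp ((QuotientGroup.mk' R).comp N.subtype)
  have hf : Function.Surjective f := by
    intro y
    obtain ⟨g, hg⟩ := QuotientGroup.mk'_surjective R (e.symm y)
    have h1 : g ∈ N ⊔ R := by rw [E.sup]; exact mem_top g
    obtain ⟨n, hn, r, hr, rfl⟩ := (mem_sup_nor (A := N) (B := R)
      (by rw [Subgroup.normalizer_eq_top N]; exact le_top)).1 h1
    refine ⟨⟨n, hn⟩, ?_⟩
    change e (QuotientGroup.mk' R n) = y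
    rw [map_mul, show QuotientGroup.mk' R r = 1 from (QuotientGroup.eq_one_iff r).2 hr, mul_one] at hg
    rw [hg, e.apply_symm_apply]
  have hk : f.ker = R.subgroupOf N := by
    ext x
    rw [MonoidHom.mem_ker, Subgroup.mem_subgroupOf]
    change e (QuotientGroup.mk' R (x : G)) = 1 ↔ _
    rw [EmbeddingLike.map_eq_one_iff]
    exact QuotientGroup.eq_one_iff (x : G)
  have hkc : f.ker ≤ center N := by
    intro x hx
    rw [hk, Subgroup.mem_subgroupOf] at hx
    rw [mem_center_iff]
    intro y
    exact Subtype.ext (E.cent y y.2 x hx)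
  have hL : commutator N = ⊤ := by
    apply Subgroup.map_injective N.subtype_injective
    rw [Subgroup.map_subtype_commutator, E.perf, ← MonoidHom.range_eq_map, Subgroup.range_subtype]
  have hnd : ∀ p : ℕ, p.Prime → p ∣ Nat.card f.ker → p = 2 := by
    intro p hp hpd
    by_contra hp2
    have hfp : Fact p.Prime := ⟨hp⟩
    exact Cfsg.Agent.Lib.PSL2Mult.not_dvd_ker hodd (by rw [hF]; norm_num) (by rw [hF]; norm_num) hf hkc hL hp2 hpd
  have hkcard : Nat.card f.ker = 2 ^ (Nat.card f.ker).primeFactorsList.length :=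
    Nat.eq_prime_pow_of_unique_prime_dvd Nat.card_pos.ne' (fun {d} hd hdd => hnd d hd hdd)
  set a := (Nat.card f.ker).primeFactorsList.length with ha
  have hk2 : IsPGroup 2 f.ker := IsPGroup.of_card hkcard
  have hNcard : Nat.card N = 2 ^ a * 1092 := by
    rw [← hkcard, ← hcard, ← Subgroup.card_mul_index f.ker, Subgroup.index_ker,
      MonoidHom.range_eq_top.2 hf, Subgroup.card_top]
  -- the center
  have hnt : Nontrivial (Matrix.ProjectiveSpecialLinearGroup (Fin 2) F) :=
    Finite.one_lt_card_iff_nontrivial.1 (by rw [hcard]; norm_num)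
  have hs' : IsSimpleGroup (Matrix.ProjectiveSpecialLinearGroup (Fin 2) F) :=
    IsSimpleGroup.isSimpleGroup_of_surjective e.toMonoidHom e.surjective
  have hcent : center (Matrix.ProjectiveSpecialLinearGroup (Fin 2) F) = ⊥ := by
    rcases hs'.eq_bot_or_eq_top_of_normal (center _) inferInstance with h | h
    · exact h
    · exfalso
      have h1 : commutator N ≤ f.ker := by
        rw [commutator_def, Subgroup.commutator_le]
        intro x _ y _
        rw [MonoidHom.mem_ker, map_commutatorElement, commutatorElement_eq_one_iff_mul_comm]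
        exact (mem_center_iff.1 (h ▸ mem_top (f y) : f y ∈ center _) (f x))
      rw [hL, top_le_iff] at h1
      have h2 : Nat.card f.ker = Nat.card N := by rw [h1, Subgroup.card_top]
      rw [← h2, hkcard] at hNcard
      have h3 : 0 < 2 ^ a := pow_pos (by norm_num) a
      omega
  have hck : center N = f.ker := by
    apply le_antisymm _ hkc
    intro x hx
    rw [MonoidHom.mem_ker, ← Subgroup.mem_bot, ← hcent, mem_center_iff]
    intro y
    obtain ⟨w, rfl⟩ := hf y
    rw [← map_mul, ← map_mul, mem_center_iff.1 hx w]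
  refine ⟨?_, ?_, a, hNcard⟩
  · have e' : N ⧸ center N ≃* Matrix.ProjectiveSpecialLinearGroup (Fin 2) F :=
      (QuotientGroup.quotientMulEquivOfEq hck).trans (QuotientGroup.quotientKerEquivOfSurjective f hf)
    rcases Cfsg.Agent.OddCyclic.CoverTrans.sl_two_of_perfect hL (by rw [hck]; exact hk2)
      (by rw [Nat.card_eq_fintype_card]; exact hodd) e' with h | h
    · left
      obtain ⟨g⟩ := psl_thirteen hF
      have hinj : Function.Injective f := by
        rw [← MonoidHom.ker_eq_bot_iff, ← hck, h]
      exact ⟨(MulEquiv.ofBijective f ⟨hinj, hf⟩).trans g⟩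
    · right
      obtain ⟨h⟩ := h
      obtain ⟨g⟩ := sl_thirteen hF
      exact ⟨h.trans g⟩
  · have h1 := hk2.map N.subtype
    rw [hk, Subgroup.subgroupOf_map_subtype, inf_comm] at h1
    exact h1

end Cfsg.Agent.H546.MaxNor
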